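import Cfsg.Agent.M23Triples.Data
import Cfsg.Agent.AutCert.M23

/-!
Kernel checks of the generating triples of M23.
-/

set_option autoImplicit false

namespace Cfsg.Agent.M23Triples

open Cfsg Cfsg.Agent.AutCert Cfsg.Agent.SchurCert Cfsg.Agent.Golay

/-- The codes of the three generators. -/
def genCodes : List ℕ := m23Gens.map Prod.fst

/-- The code of a word, read as a product from the left. -/
def wordCode (L : List ℕ) : List ℕ → ℕ
  | [] => permOne
  | i :: w => permMul (L.getD i permOne) (wordCode L w)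

/-- The code of a power. -/
def powCd (x : ℕ) : ℕ → ℕ
  | 0 => permOne
  | n + 1 => permMul (powCd x n) x

/-- The code is not the identity and its `p`-th power is. -/
def ordOK (c p : ℕ) : Bool := !Nat.beq c permOne && Nat.beq (powCd c p) permOne

/-- The checks on a row. -/
def rowOK (R : Row) : Bool :=
  let x := wordCode genCodes R.wx
  let y := wordCode genCodes R.wy
  ordOK x R.p && ordOK y R.q && ordOK (permMul x y) R.r &&
    Nat.beq (wordCode [x, y] R.wc) (genCodes.getD 0 permOne) &&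
    Nat.beq (wordCode [x, y] R.wd) (genCodes.getD 1 permOne) &&
    Nat.beq (wordCode [x, y] R.we) (genCodes.getD 2 permOne)

theorem rows_ok : rows.all rowOK = true := by decide +kernel

theorem genC_ok : m23GenC.check = true ∧ m23GenC.bound = 10200960 ∧ m23GenC.start = 3 ∧
    m23GenC.vals.take 3 = genCodes := by
  decide +kernel

/-- The triples of primes claimed. -/
theorem rows_cover : ∀ p ∈ [2, 3, 5, 7, 11, 23], ∀ q ∈ [2, 3, 5, 7, 11, 23],
    ∀ r ∈ [2, 3, 5, 7, 11, 23], p ≤ q → q ≤ r → ¬ (p = 2 ∧ q = 2) →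
    ¬ ((p = 2 ∧ q = 3) ∨ (p = 2 ∧ q = 5 ∧ r = 5) ∨ (p = 2 ∧ q = 5 ∧ r = 7) ∨
      (p = 3 ∧ q = 3 ∧ r ≤ 7)) →
    ∃ R ∈ rows, R.p = p ∧ R.q = q ∧ R.r = r := by
  decide +kernel

end Cfsg.Agent.M23Triples
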