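import Cfsg.Agent.M23Triples.Scott
import Cfsg.Agent.M23Triples.Check
import Cfsg.Agent.M24.Classes
import Cfsg.Agent.Golay.FixedPoints

/-!
Generation of M23 by triples of elements of prime order.
-/

set_option autoImplicit false

namespace Cfsg.Agent.M23Triples

open Cfsg Cfsg.Agent.AutCert Cfsg.Agent.SchurCert Cfsg.Agent.Golay Module

theorem mem_prime_list {p : ℕ} (hp : p.Prime) (h : p ∣ 10200960) : p ∈ [2, 3, 5, 7, 11, 23] := by
  rw [show (10200960 : ℕ) = 2 ^ 7 * 3 ^ 2 * 5 * 7 * 11 * 23 by norm_num] at h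
  have e : ∀ {s : ℕ}, s.Prime → p ∣ s → p = s := fun hs hd => (Nat.prime_dvd_prime_iff_eq hp hs).1 hd
  rcases hp.dvd_mul.1 h with h | h
  · rcases hp.dvd_mul.1 h with h | h
    · rcases hp.dvd_mul.1 h with h | h
      · rcases hp.dvd_mul.1 h with h | h
        · rcases hp.dvd_mul.1 h with h | h
          · simp [e Nat.prime_two (hp.dvd_of_dvd_pow h)]
          · simp [e Nat.prime_three (hp.dvd_of_dvd_pow h)]
        · simp [e (by norm_num : Nat.Prime 5) h]
      · simp [e (by norm_num : Nat.Prime 7) h]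
    · simp [e (by norm_num : Nat.Prime 11) h]
  · simp [e (by norm_num : Nat.Prime 23) h]

/-! ### Witnesses -/

/-- The value of a word. -/
def wordVal {G : Type*} [Monoid G] (L : List G) : List ℕ → G
  | [] => 1
  | i :: w => L.getD i 1 * wordVal L w

theorem wordVal_mem {G : Type*} [Group G] {K : Subgroup G} {L : List G} (h : ∀ g ∈ L, g ∈ K) :
    ∀ w, wordVal L w ∈ K
  | [] => one_mem K
  | i :: w => by
    refine mul_mem ?_ (wordVal_mem h w)
    rw [List.getD_eq_getElem?_getD]
    cases hi : L[i]? with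
    | none => exact one_mem K
    | some g => exact h g (List.mem_of_getElem? hi)

theorem getD_map_of_eq {α β : Type*} (f : α → β) (L : List α) (d : α) (d' : β) (h : f d = d')
    (i : ℕ) : f (L.getD i d) = (L.map f).getD i d' := by
  rw [List.getD_eq_getElem?_getD, List.getD_eq_getElem?_getD, List.getElem?_map]
  cases L[i]? with
  | none => exact h
  | some g => rfl

theorem wordVal_nil {G : Type*} [Monoid G] (L : List G) : wordVal L [] = 1 := rfl

theorem wordVal_cons {G : Type*} [Monoid G] (L : List G) (i : ℕ) (w : List ℕ) :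
    wordVal L (i :: w) = L.getD i 1 * wordVal L w := rfl

theorem wordCode_nil (L : List ℕ) : wordCode L [] = permOne := rfl

theorem wordCode_cons (L : List ℕ) (i : ℕ) (w : List ℕ) :
    wordCode L (i :: w) = permMul (L.getD i permOne) (wordCode L w) := rfl

theorem encPerm_coe_one (H : Subgroup (Equiv.Perm GolayPt)) :
    encPerm ((1 : H) : Equiv.Perm GolayPt) = permOne := by
  rw [OneMemClass.coe_one, encPerm_one]

theorem encPerm_wordVal {H : Subgroup (Equiv.Perm GolayPt)} {L : List H} {C : List ℕ}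
    (hC : C = L.map fun g => encPerm g.1) :
    ∀ w, encPerm (wordVal L w : H).1 = wordCode C w
  | [] => by rw [wordVal_nil, wordCode_nil, encPerm_coe_one]
  | i :: w => by
    rw [wordVal_cons, wordCode_cons, Subgroup.coe_mul, encPerm_mul, encPerm_wordVal hC w, hC]
    rw [getD_map_of_eq (fun g : H => encPerm g.1) L 1 permOne (encPerm_coe_one H) i]

theorem encPerm_powCd (g : Equiv.Perm GolayPt) : ∀ n, encPerm (g ^ n) = powCd (encPerm g) n
  | 0 => by rw [pow_zero, encPerm_one, powCd]
  | n + 1 => by rw [pow_succ, encPerm_mul, encPerm_powCd g n, powCd]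

theorem orderOf_eq_of_ordOK {H : Subgroup (Equiv.Perm GolayPt)} {g : H} {p : ℕ} (hp : p.Prime)
    (h : ordOK (encPerm g.1) p = true) : orderOf g = p := by
  simp only [ordOK, Bool.and_eq_true, Bool.not_eq_true'] at h
  haveI := Fact.mk hp
  refine orderOf_eq_prime (Subtype.ext (encPerm_injective ?_)) fun h1 => ?_
  · rw [SubmonoidClass.coe_pow, encPerm_powCd, Nat.eq_of_beq_eq_true h.2]
    exact encPerm_one.symm
  · rw [h1, OneMemClass.coe_one, encPerm_one] at h
    simp at h

/-- Each row gives a generating triple. -/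
theorem exists_triple {R : Row} (hR : R ∈ rows) (hp : R.p.Prime) (hq : R.q.Prime)
    (hr : R.r.Prime) :
    ∃ x y z : Cfsg.Spor.M23, orderOf x = R.p ∧ orderOf y = R.q ∧ orderOf z = R.r ∧
      x * y * z = 1 ∧ Subgroup.closure {x, y} = ⊤ := by
  have hok := List.all_eq_true.1 rows_ok R hR
  simp only [rowOK, Bool.and_eq_true] at hok
  obtain ⟨⟨⟨⟨⟨hx, hy⟩, hxy⟩, hc⟩, hd⟩, he⟩ := hok
  let G : List Cfsg.Spor.M23 :=
    [elemAt Cfsg.Spor.M23 m23Gens 0, elemAt Cfsg.Spor.M23 m23Gens 1,
      elemAt Cfsg.Spor.M23 m23Gens 2]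
  have henc : ∀ i, encPerm (elemAt Cfsg.Spor.M23 m23Gens i).1 =
      genCodes.getD i permOne := enc_elemAt m23Gens_tested.1 m23Gens_mem
  have hG : genCodes = G.map fun g => encPerm g.1 := by
    simp only [G, List.map_cons, List.map_nil, henc]
    decide +kernel
  set x := wordVal G R.wx with hxdef
  set y := wordVal G R.wy with hydef
  have ex : encPerm x.1 = wordCode genCodes R.wx := encPerm_wordVal hG _
  have ey : encPerm y.1 = wordCode genCodes R.wy := encPerm_wordVal hG _
  refine ⟨x, y, (x * y)⁻¹, orderOf_eq_of_ordOK hp (ex ▸ hx), orderOf_eq_of_ordOK hq (ey ▸ hy), ?_,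
    mul_inv_cancel _, ?_⟩
  · rw [orderOf_inv]
    refine orderOf_eq_of_ordOK hr ?_
    rw [Subgroup.coe_mul, encPerm_mul, ex, ey]
    exact hxy
  set K := Subgroup.closure ({x, y} : Set Cfsg.Spor.M23) with hK
  have hxyK : ∀ g ∈ ([x, y] : List Cfsg.Spor.M23), g ∈ K := by
    intro g hg
    exact Subgroup.subset_closure (by simpa using hg)
  have hgen : ∀ k < 3, ∃ g ∈ K, encPerm g.1 = genCodes.getD k permOne := by
    intro k hk
    have hwords : ∀ w, encPerm (wordVal [x, y] w).1 =
        wordCode [wordCode genCodes R.wx, wordCode genCodes R.wy] w := fun w =>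
      encPerm_wordVal (by simp [ex, ey]) w
    interval_cases k
    · exact ⟨_, wordVal_mem hxyK R.wc, (hwords _).trans (Nat.eq_of_beq_eq_true hc)⟩
    · exact ⟨_, wordVal_mem hxyK R.wd, (hwords _).trans (Nat.eq_of_beq_eq_true hd)⟩
    · exact ⟨_, wordVal_mem hxyK R.we, (hwords _).trans (Nat.eq_of_beq_eq_true he)⟩
  obtain ⟨hC, hb, hs, ht⟩ := genC_ok
  have hle := bound_le_of_check m23GenC hC (K.map Cfsg.Spor.M23.subtype) (by
    intro k hk
    rw [hs] at hk
    obtain ⟨g, hg, eg⟩ := hgen k hk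
    refine ⟨g.1, ⟨g, hg, rfl⟩, eg.trans ?_⟩
    rw [← ht, GenCert.val, List.getD_eq_getElem?_getD, List.getD_eq_getElem?_getD,
      List.getElem?_take_of_lt hk])
  rw [hb, Nat.card_congr (K.equivMapOfInjective _ Subtype.val_injective).toEquiv.symm] at hle
  exact Subgroup.eq_top_of_le_card K (m23_card ▸ hle)

/-! ### Excluded triples -/

theorem none_fixed (g : Cfsg.Spor.M23) : (g : Equiv.Perm GolayPt) none = none := g.2.2

theorem shiftPerm_pow (n : ℕ) : ∀ j : ZMod 23, (shiftPerm ^ n) (some j) = some (j + n) := by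
  induction n with
  | zero => simp
  | succ n ih =>
    intro j
    have : shiftPerm (some (j + n) : GolayPt) = some (j + n + 1) := rfl
    rw [pow_succ', Equiv.Perm.mul_apply, ih, this, Nat.cast_succ, add_assoc]

/-- A generating pair has two orbits on the 24 points. -/
theorem fewOrbits {x y : Cfsg.Spor.M23} (h : Subgroup.closure {x, y} = ⊤) :
    FewOrbits (x : Equiv.Perm GolayPt) (y : Equiv.Perm GolayPt) 2 := by
  refine ⟨{none, some 0}, Finset.card_insert_le _ _, fun c hx hy ht => ?_⟩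
  have hall : ∀ g : Cfsg.Spor.M23, ∀ i, c ((g : Equiv.Perm GolayPt) i) = c i := by
    intro g
    have hg : g ∈ Subgroup.closure ({x, y} : Set Cfsg.Spor.M23) := h ▸ Subgroup.mem_top g
    induction hg using Subgroup.closure_induction with
    | mem a ha =>
      rcases ha with rfl | ha
      · exact hx
      · rw [Set.mem_singleton_iff.1 ha]; exact hy
    | one => exact fun i => rfl
    | mul a b _ _ iha ihb => exact fun i => (iha _).trans (ihb i)
    | inv a _ iha =>
      intro i
      have := iha ((a⁻¹ : Cfsg.Spor.M23).1 i)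
      simpa using this.symm
  funext p
  cases p with
  | none => exact ht none (by simp)
  | some j =>
    have hm : shiftPerm ^ j.val ∈ Cfsg.Spor.M23 :=
      pow_mem (show shiftPerm ∈ Cfsg.Spor.M23 from
        ⟨shiftPerm_mem, MulAction.mem_stabilizer_iff.2 rfl⟩) _
    have := hall ⟨_, hm⟩ (some 0)
    rw [Subtype.coe_mk, shiftPerm_pow, zero_add, ZMod.natCast_zmod_val] at this
    exact this.trans (ht _ (by simp))

/-- The fixed point count used as a bound. -/
def fixBound (p : ℕ) : ℕ :=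
  if p = 2 then 8 else if p = 3 then 6 else if p = 5 then 4 else if p = 7 then 3 else 1

theorem fixBound_le (g : Cfsg.Spor.M23) {p : ℕ} (hp : p.Prime) (ho : orderOf g = p) :
    fixBound p ≤ (Finset.univ.filter fun i => (g : Equiv.Perm GolayPt) i = i).card := by
  have ho' : orderOf (g : Equiv.Perm GolayPt) = p := (Subgroup.orderOf_coe g).trans ho
  have hg : (g : Equiv.Perm GolayPt) ∈ M24 := g.2.1
  have hpos : 0 < (Finset.univ.filter fun i => (g : Equiv.Perm GolayPt) i = i).card :=
    Finset.card_pos.2 ⟨none, by simp [none_fixed g]⟩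
  unfold fixBound
  split_ifs with h2 h3 h5 h7
  · subst h2
    obtain ⟨h, -, e | e⟩ := M24.order_two_cases hg ho'
    · rw [e, M24.fix_conj, M24.fixCount_eq (M24.reps_good _ (by simp)), M24.rep_fix.2.2.1]
    · rw [e, M24.fix_conj, M24.fixCount_eq (M24.reps_good _ (by simp)), M24.rep_fix.2.2.2] at hpos
      omega
  · subst h3
    obtain ⟨h, -, e | e⟩ := M24.order_three_cases hg ho'
    · rw [e, M24.fix_conj, M24.fixCount_eq (M24.reps_good _ (by simp)), M24.rep_fix.1]
    · rw [e, M24.fix_conj, M24.fixCount_eq (M24.reps_good _ (by simp)), M24.rep_fix.2.1] at hpos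
      omega
  · subst h5
    haveI := Fact.mk hp
    exact le_of_eq (card_fixSet_eq hg (by norm_num) ho' 4 (by norm_num)).symm
  · subst h7
    haveI := Fact.mk hp
    exact le_of_eq (card_fixSet_eq hg (by norm_num) ho' 3 (by norm_num)).symm
  · exact hpos

theorem cycles_le (g : Cfsg.Spor.M23) {p : ℕ} (hp : p.Prime) (ho : orderOf g = p) :
    24 + (p - 1) * fixBound p ≤ p * finrank ℚ (invFun (g : Equiv.Perm GolayPt)) := by
  have h := le_finrank_invFun (g : Equiv.Perm GolayPt) ((Subgroup.orderOf_coe g).trans ho)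
  rw [card_golayPt] at h
  exact le_trans (Nat.add_le_add_left (Nat.mul_le_mul_left _ (fixBound_le g hp ho)) _) h

theorem not_excluded {p q r : ℕ} (hp : p.Prime) (hq : q.Prime) (hr : r.Prime) (hqr : q ≤ r)
    {x y z : Cfsg.Spor.M23} (hx : orderOf x = p) (hy : orderOf y = q) (hz : orderOf z = r)
    (hxyz : x * y * z = 1) (hgen : Subgroup.closure {x, y} = ⊤) :
    ¬ ((p = 2 ∧ q = 3) ∨ (p = 2 ∧ q = 5 ∧ r = 5) ∨ (p = 2 ∧ q = 5 ∧ r = 7) ∨
      (p = 3 ∧ q = 3 ∧ r ≤ 7)) := by
  have hxy : orderOf (x * y) = r := by rw [eq_inv_of_mul_eq_one_left hxyz, orderOf_inv, hz]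
  have h1 := cycles_le x hp hx
  have h2 := cycles_le y hq hy
  have h3 := cycles_le (x * y) hr hxy
  have h := scott (fewOrbits hgen)
  rw [card_golayPt] at h
  rw [Subgroup.coe_mul] at h3
  rintro (⟨rfl, rfl⟩ | ⟨rfl, rfl, rfl⟩ | ⟨rfl, rfl, rfl⟩ | ⟨rfl, rfl, hr7⟩)
  · have h4 : r + 23 ≤ r * finrank ℚ (invFun ((x : Equiv.Perm GolayPt) * (y : Equiv.Perm GolayPt))) := by
      refine le_trans ?_ h3
      have : 1 ≤ fixBound r := by unfold fixBound; split_ifs <;> norm_num
      have := Nat.mul_le_mul_left (r - 1) this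
      omega
    have : 2 ≤ finrank ℚ (invFun ((x : Equiv.Perm GolayPt) * (y : Equiv.Perm GolayPt))) := by
      by_contra hlt
      have := Nat.mul_le_mul_left r (Nat.le_of_lt_succ (Nat.lt_of_not_le hlt))
      omega
    simp [fixBound] at h1 h2
    omega
  · simp [fixBound] at h1 h2 h3
    omega
  · simp [fixBound] at h1 h2 h3
    omega
  · interval_cases r <;> first | (norm_num at hr; done) | (simp [fixBound] at h1 h2 h3; omega)

/-- Generation of M23 by triples of prime orders. -/
theorem triple_iff (p q r : ℕ) (hp : p.Prime) (hq : q.Prime) (hr : r.Prime) (hpq : p ≤ q)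
    (hqr : q ≤ r) (hp2 : ¬ (p = 2 ∧ q = 2))
    (hdvd : p ∣ 10200960 ∧ q ∣ 10200960 ∧ r ∣ 10200960) :
    (∃ x y z : Cfsg.Spor.M23, orderOf x = p ∧ orderOf y = q ∧ orderOf z = r ∧ x * y * z = 1 ∧
        Subgroup.closure {x, y} = ⊤) ↔
      ¬ ((p = 2 ∧ q = 3) ∨ (p = 2 ∧ q = 5 ∧ r = 5) ∨ (p = 2 ∧ q = 5 ∧ r = 7) ∨
        (p = 3 ∧ q = 3 ∧ r ≤ 7)) := by
  constructor
  · rintro ⟨x, y, z, hx, hy, hz, hxyz, hgen⟩
    exact not_excluded hp hq hr hqr hx hy hz hxyz hgen
  · intro hex
    obtain ⟨R, hR, rfl, rfl, rfl⟩ := rows_cover p (mem_prime_list hp hdvd.1) q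
      (mem_prime_list hq hdvd.2.1) r (mem_prime_list hr hdvd.2.2) hpq hqr hp2 hex
    exact exists_triple hR hp hq hr

end Cfsg.Agent.M23Triples
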