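import Mathlib.LinearAlgebra.Dual.Lemmas
import Mathlib.LinearAlgebra.Dimension.Constructions
import Mathlib.GroupTheory.GroupAction.Quotient
import Mathlib.GroupTheory.OrderOfElement

/-!
Scott's inequality for the orbits of two permutations and their product.
-/

set_option autoImplicit false

namespace Cfsg.Agent.M23Triples

open Module

set_option linter.unusedSectionVars false

variable {α : Type*} [Fintype α] [DecidableEq α]

/-- `f ↦ f ∘ g - f`. -/
def dMap (g : Equiv.Perm α) : (α → ℚ) →ₗ[ℚ] (α → ℚ) :=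
  LinearMap.funLeft ℚ ℚ g - LinearMap.id

theorem dMap_apply (g : Equiv.Perm α) (f : α → ℚ) (i : α) : dMap g f i = f (g i) - f i := rfl

/-- The functions constant on cycles. -/
def invFun (g : Equiv.Perm α) : Submodule ℚ (α → ℚ) := LinearMap.ker (dMap g)

theorem mem_invFun {g : Equiv.Perm α} {f : α → ℚ} : f ∈ invFun g ↔ ∀ i, f (g i) = f i := by
  simp [invFun, LinearMap.mem_ker, funext_iff, dMap_apply, sub_eq_zero]

/-- Two permutations whose group has at most `d` orbits, as seen by invariant functions. -/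
def FewOrbits (x y : Equiv.Perm α) (d : ℕ) : Prop :=
  ∃ t : Finset α, t.card ≤ d ∧
    ∀ c : α → ℚ, (∀ i, c (x i) = c i) → (∀ i, c (y i) = c i) → (∀ i ∈ t, c i = 0) → c = 0

theorem finrank_joint_le {x y : Equiv.Perm α} {d : ℕ} (h : FewOrbits x y d) :
    finrank ℚ (invFun x ⊓ invFun y : Submodule ℚ (α → ℚ)) ≤ d := by
  obtain ⟨t, ht, hc⟩ := h
  let ev : (invFun x ⊓ invFun y : Submodule ℚ (α → ℚ)) →ₗ[ℚ] (t → ℚ) :=
    LinearMap.funLeft ℚ ℚ (Subtype.val : t → α) ∘ₗ Submodule.subtype _
  have hev : Function.Injective ev := by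
    rw [injective_iff_map_eq_zero]
    intro f hf
    exact Subtype.ext (hc f.1 (mem_invFun.1 f.2.1) (mem_invFun.1 f.2.2)
      fun i hi => congrFun hf ⟨i, hi⟩)
  have := LinearMap.finrank_le_finrank_of_injective hev
  rw [finrank_pi, Fintype.card_coe] at this
  omega

theorem le_finrank_ranges {x y : Equiv.Perm α} {d : ℕ} (h : FewOrbits x y d) :
    Fintype.card α ≤ finrank ℚ (LinearMap.range (dMap x) ⊔ LinearMap.range (dMap y) :
      Submodule ℚ (α → ℚ)) + d := by
  obtain ⟨t, ht, hc⟩ := h
  set W : Submodule ℚ (α → ℚ) := LinearMap.range (dMap x) ⊔ LinearMap.range (dMap y)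
  let ev : W.dualAnnihilator →ₗ[ℚ] (t → ℚ) :=
    { toFun := fun ψ i => ψ.1 (Pi.single i.1 1)
      map_add' := fun a b => rfl
      map_smul' := fun c a => rfl }
  have hev : Function.Injective ev := by
    rw [injective_iff_map_eq_zero]
    intro ψ hψ
    have hinv : ∀ g : Equiv.Perm α, LinearMap.range (dMap g) ≤ W →
        ∀ i, ψ.1 (Pi.single (g i) 1) = ψ.1 (Pi.single i 1) := by
      intro g hg i
      have h1 : ψ.1 (dMap g (Pi.single (g i) 1)) = 0 :=
        (Submodule.mem_dualAnnihilator _).1 ψ.2 _ (hg ⟨_, rfl⟩)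
      have h2 : dMap g (Pi.single (g i) 1) = Pi.single i 1 - Pi.single (g i) 1 := by
        ext j
        simp [dMap_apply, Pi.single_apply]
      rw [h2, map_sub, sub_eq_zero] at h1
      exact h1.symm
    have h0 := hc (fun i => ψ.1 (Pi.single i 1)) (hinv x le_sup_left) (hinv y le_sup_right)
      fun i hi => congrFun hψ ⟨i, hi⟩
    exact Subtype.ext ((Pi.basisFun ℚ α).ext fun i => by simpa using congrFun h0 i)
  have h1 := LinearMap.finrank_le_finrank_of_injective hev
  rw [finrank_pi, Fintype.card_coe] at h1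
  have h2 := Subspace.finrank_add_finrank_dualAnnihilator_eq W
  rw [finrank_pi] at h2
  omega

/-- Scott's inequality. -/
theorem scott {x y : Equiv.Perm α} {d : ℕ} (h : FewOrbits x y d) :
    finrank ℚ (invFun x) + finrank ℚ (invFun y) + finrank ℚ (invFun (x * y)) ≤
      Fintype.card α + 2 * d := by
  let A := LinearMap.range (dMap x)
  let B := LinearMap.range (dMap y)
  let φ : A × B →ₗ[ℚ] (α → ℚ) :=
    (LinearMap.funLeft ℚ ℚ y ∘ₗ A.subtype).coprod B.subtype
  have him : A ⊔ B ≤ LinearMap.range φ := by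
    refine sup_le (fun a ha => ?_) (fun b hb => ⟨(0, ⟨b, hb⟩), by simp [φ]⟩)
    have hb : dMap y a ∈ B := ⟨a, rfl⟩
    refine ⟨(⟨a, ha⟩, -⟨_, hb⟩), funext fun i => ?_⟩
    simp [φ, dMap_apply, LinearMap.funLeft]
  let β : invFun (x * y) →ₗ[ℚ] A × B :=
    ((dMap x).rangeRestrict ∘ₗ Submodule.subtype _).prod
      ((dMap y).rangeRestrict ∘ₗ Submodule.subtype _)
  have hker : LinearMap.range β ≤ LinearMap.ker φ := by
    rintro _ ⟨f, rfl⟩
    refine LinearMap.mem_ker.2 (funext fun i => ?_)
    have := mem_invFun.1 f.2 i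
    simp [φ, β, dMap_apply, LinearMap.funLeft] at this ⊢
    linarith
  have hkerβ : finrank ℚ (LinearMap.ker β) ≤ d := by
    refine le_trans ?_ (finrank_joint_le h)
    let ι : LinearMap.ker β →ₗ[ℚ] (invFun x ⊓ invFun y : Submodule ℚ (α → ℚ)) :=
      LinearMap.codRestrict _ (Submodule.subtype _ ∘ₗ Submodule.subtype _) fun f => by
        have hf := LinearMap.mem_ker.1 f.2
        exact ⟨LinearMap.mem_ker.2 (congrArg (fun z : A × B => (z.1 : α → ℚ)) hf),
          LinearMap.mem_ker.2 (congrArg (fun z : A × B => (z.2 : α → ℚ)) hf)⟩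
    exact LinearMap.finrank_le_finrank_of_injective (f := ι) fun a b hab =>
      Subtype.ext (Subtype.ext (congrArg Subtype.val hab :))
  have e1 := LinearMap.finrank_range_add_finrank_ker φ
  have e2 := LinearMap.finrank_range_add_finrank_ker β
  have e3 : finrank ℚ A + finrank ℚ (invFun x) = Fintype.card α :=
    (LinearMap.finrank_range_add_finrank_ker (dMap x)).trans (finrank_pi ℚ)
  have e4 : finrank ℚ B + finrank ℚ (invFun y) = Fintype.card α :=
    (LinearMap.finrank_range_add_finrank_ker (dMap y)).trans (finrank_pi ℚ)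
  have e1' : finrank ℚ (LinearMap.range φ) + finrank ℚ (LinearMap.ker φ) =
      finrank ℚ A + finrank ℚ B := e1.trans finrank_prod
  have e5 := Submodule.finrank_mono him
  have e6 := Submodule.finrank_mono hker
  have e7 : Fintype.card α ≤ finrank ℚ (A ⊔ B : Submodule ℚ (α → ℚ)) + d := le_finrank_ranges h
  omega

/-- The number of cycles of an element of prime order bounds the invariant functions from below. -/
theorem le_finrank_invFun (g : Equiv.Perm α) {p : ℕ} (ho : orderOf g = p) :
    Fintype.card α + (p - 1) * (Finset.univ.filter fun i => g i = i).card ≤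
      p * finrank ℚ (invFun g) := by
  classical
  let H := Subgroup.zpowers g
  let Q := MulAction.orbitRel.Quotient H α
  let π : α → Q := Quotient.mk _
  have hπ : ∀ i, π (g i) = π i := fun i => Quotient.sound
    (MulAction.orbitRel_apply.2 ⟨⟨g, Subgroup.mem_zpowers g⟩, rfl⟩)
  let e : (Q → ℚ) →ₗ[ℚ] invFun g :=
    LinearMap.codRestrict _ (LinearMap.funLeft ℚ ℚ π) fun f =>
      mem_invFun.2 fun i => congrArg f (hπ i)
  have hinj : Function.Injective e := fun a b hab => funext fun z => by
    obtain ⟨i, rfl⟩ := Quotient.exists_rep z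
    exact congrFun (congrArg Subtype.val hab) i
  have h1 := LinearMap.finrank_le_finrank_of_injective hinj
  rw [finrank_pi] at h1
  have h2 := MulAction.sum_card_fixedBy_eq_card_orbits_mul_card_group H α
  have hcard : Fintype.card H = p := (Fintype.card_zpowers).trans ho
  have h3 : Fintype.card α + (p - 1) * (Finset.univ.filter fun i => g i = i).card ≤
      ∑ a : H, Fintype.card (MulAction.fixedBy α a) := by
    rw [← Finset.add_sum_erase _ _ (Finset.mem_univ (1 : H))]
    refine Nat.add_le_add ?_ ?_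
    · refine le_of_eq (Fintype.card_congr (Equiv.subtypeUnivEquiv fun i => ?_)).symm
      exact one_smul H i
    · refine le_trans (le_of_eq ?_) (Finset.card_nsmul_le_sum _ _
        (Finset.univ.filter fun i => g i = i).card fun a _ => ?_)
      · rw [Finset.card_erase_of_mem (Finset.mem_univ _), Finset.card_univ, hcard, smul_eq_mul]
      · rw [← Set.toFinset_card]
        refine Finset.card_le_card fun i hi => Set.mem_toFinset.2 ?_
        obtain ⟨n, hn⟩ := a.2
        show (a : Equiv.Perm α) i = i
        rw [← hn]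
        exact Equiv.Perm.zpow_apply_eq_self_of_apply_eq_self (Finset.mem_filter.1 hi).2 n
  calc _ ≤ _ := h3
    _ = Fintype.card Q * p := by rw [h2, hcard]
    _ ≤ finrank ℚ (invFun g) * p := Nat.mul_le_mul_right _ h1
    _ = _ := mul_comm _ _

end Cfsg.Agent.M23Triples
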